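import Cfsg.Agent.H674.XZ.PAbL

/-!
# S4933, box (5): nonabelian `p`-groups with a fixed vector (helper719)

* `lt_finrank` : a nonabelian `p`-group of linear maps with a fixed vector has degree larger than `p e`;
* `two_lt_finrank` : the same for the linear primes and isometries, larger than `2 p e`;
* `exists_fix_of_free` : (after helper345) a `p`-group acting on a set together with a free `p`-group commuting with it;
* `exists_fix` : a `p`-group fixes a nonsingular vector if the number of nonsingular lines is prime to `p`.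
-/

set_option autoImplicit false
set_option linter.unusedSectionVars false

namespace Cfsg.Agent.H719.HT.AbW

open Polynomial Module
open scoped commutatorElement

universe u v

variable {p : ℕ} [hp : Fact p.Prime] {F : Type u} [Field F] [Fintype F]

section main

variable {V : Type v} [AddCommGroup V] [Module F V] [FiniteDimensional F V]

theorem aeval_fix {T : End F V} (P : F[X]) {w : V} (hw : T w = w) : aeval T P w = P.eval 1 • w := by
  induction P using Polynomial.induction_on' with
  | add P Q hP hQ => rw [map_add, LinearMap.add_apply, hP, hQ, eval_add, add_smul]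
  | monomial k b =>
    have h6 : ∀ k : ℕ, (T ^ k) w = w := by
      intro k
      induction k with
      | zero => rfl
      | succ k ih => rw [pow_succ', End.mul_apply, ih, hw]
    rw [aeval_monomial, End.mul_apply, h6, Module.algebraMap_end_apply, eval_monomial, one_pow, mul_one]

/-- a central element of order `p` in the commutator subgroup -/
theorem exists_z {R : Type*} [Group R] [Finite R] (hR : IsPGroup p R) (hna : ¬ ∀ x y : R, x * y = y * x) :
    ∃ z ∈ commutator R ⊓ Subgroup.center R, orderOf z = p := by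
  have hnil : Group.IsNilpotent R := hR.isNilpotent
  have hc : commutator R ≠ ⊥ := by
    intro h
    apply hna
    intro x y
    have h1 : ⁅x, y⁆ ∈ commutator R := Subgroup.commutator_mem_commutator (Subgroup.mem_top x) (Subgroup.mem_top y)
    rw [h, Subgroup.mem_bot] at h1
    exact commutatorElement_eq_one_iff_mul_comm.1 h1
  have h1 := Lib.NormalAbelian.normal_inf_center_ne_bot (commutator R) hc
  have h2 : IsPGroup p ↥(commutator R ⊓ Subgroup.center R) := hR.to_subgroup _
  have hnt : Nontrivial ↥(commutator R ⊓ Subgroup.center R) := (Subgroup.nontrivial_iff_ne_bot _).2 h1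
  have hd : p ∣ Nat.card ↥(commutator R ⊓ Subgroup.center R) := by
    obtain ⟨n, hn⟩ := h2.exists_card_eq
    rcases Nat.eq_zero_or_pos n with h0 | h0
    · rw [h0, pow_zero] at hn
      exact absurd hn (Finite.one_lt_card).ne'
    · rw [hn]
      exact dvd_pow_self p h0.ne'
  obtain ⟨z, hz⟩ := exists_prime_orderOf_dvd_card' p hd
  exact ⟨z, z.2, by rw [Subgroup.orderOf_coe]; exact hz⟩

/-- **with a fixed vector the degree is larger than `p e`** -/
theorem lt_finrank (hpF : (p : F) ≠ 0) {R : Type*} [Group R] [Finite R] (hR : IsPGroup p R)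
    (ρ : R →* End F V) (hρ : Function.Injective ρ) (hna : ¬ ∀ x y : R, x * y = y * x) {v₁ : V} (hv₁ : v₁ ≠ 0)
    (hfix : ∀ x, ρ x v₁ = v₁) : p * orderOf (Fintype.card F : ZMod p) < finrank F V := by
  obtain ⟨z, hz, hzo⟩ := exists_z hR hna
  have hzc : ∀ x : R, z * x = x * z := fun x => (Subgroup.mem_center_iff.1 hz.2 x).symm
  set T : End F V := ρ z with hT
  have hTp : T ^ p = 1 := by
    rw [hT, ← map_pow, ← hzo, pow_orderOf_eq_one, map_one]
  have hT1 : T ≠ 1 := by
    intro h
    have h2 : z = 1 := hρ (by rw [map_one]; exact h)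
    rw [h2, orderOf_one] at hzo
    exact hp.out.one_lt.ne hzo
  have hcT : ∀ x, Commute (ρ x) T := fun x => by
    show ρ x * ρ z = ρ z * ρ x
    rw [← map_mul, ← map_mul, hzc]
  set Φ : F[X] := cyclotomic p F with hΦdef
  have hΦ : Φ * (X - 1) = X ^ p - 1 := cyclotomic_prime_mul_X_sub_one F p
  have hΦ1 : Φ.eval 1 = (p : F) := eval_one_cyclotomic_prime
  obtain ⟨v₀, hv₀⟩ : ∃ v, (T - 1) v ≠ 0 := by
    by_contra h
    push Not at h
    exact hT1 (sub_eq_zero.1 (LinearMap.ext h))
  have hkill : aeval T Φ ((T - 1) v₀) = 0 := by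
    have e1 : T - 1 = aeval T (X - 1 : F[X]) := by rw [map_sub, aeval_X, map_one]
    rw [e1, ← End.mul_apply, ← map_mul, hΦ, map_sub, map_pow, aeval_X, map_one, hTp, sub_self,
      LinearMap.zero_apply]
  have hW : ∀ (x : R), ∀ w ∈ LinearMap.ker (aeval T Φ), ρ x w ∈ LinearMap.ker (aeval T Φ) := by
    intro x w hw
    rw [LinearMap.mem_ker] at hw ⊢
    rw [← End.mul_apply, ← (H674.XZ.Iso.commute_aeval (hcT x) Φ).eq, End.mul_apply, hw, map_zero]
  refine lt_of_le_of_lt (H674.XZ.Iso.sub_bound hpF hR ρ hW hz.1 (LinearMap.mem_ker.2 hkill) fun h => hv₀ ?_)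
    (Submodule.finrank_lt fun htop => ?_)
  · have h1 := aeval_fix Φ h
    rw [hkill, hΦ1] at h1
    exact (smul_eq_zero.1 h1.symm).resolve_left hpF
  · have h1 : v₁ ∈ LinearMap.ker (aeval T Φ) := by rw [htop]; exact Submodule.mem_top
    rw [LinearMap.mem_ker, aeval_fix Φ (hfix z), hΦ1] at h1
    exact hv₁ ((smul_eq_zero.1 h1).resolve_left hpF)

/-- **linear primes, isometries: with a fixed vector the degree is larger than `2 p e`** -/
theorem two_lt_finrank (hpF : (p : F) ≠ 0) {r s : ℕ} [Fact r.Prime] [CharP F r] (σ : F ≃+* F)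
    (hσ : ∀ a, σ a = a ^ (r ^ s)) (hlin : ∀ j, ¬ p ∣ Fintype.card F ^ j + r ^ s)
    {R : Type*} [Group R] [Finite R] (hR : IsPGroup p R)
    (ρ : R →* End F V) (hρ : Function.Injective ρ) (hna : ¬ ∀ x y : R, x * y = y * x) {B : V → V → F}
    (hadd1 : ∀ u u' v, B (u + u') v = B u v + B u' v) (hadd2 : ∀ u v v', B u (v + v') = B u v + B u v')
    (hs1 : ∀ (a : F) u v, B (a • u) v = a * B u v) (hs2 : ∀ (a : F) u v, B u (a • v) = σ a * B u v)
    (hinv : ∀ x u v, B (ρ x u) (ρ x v) = B u v) (hnd : ∀ u, (∀ v, B u v = 0) → u = 0)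
    {v₁ : V} (hv₁ : v₁ ≠ 0) (hfix : ∀ x, ρ x v₁ = v₁) :
    2 * (p * orderOf (Fintype.card F : ZMod p)) < finrank F V := by
  classical
  have hpq : ¬ p ∣ Fintype.card F := by
    intro h
    obtain ⟨k, hk⟩ := h
    apply hpF
    obtain ⟨n, hn, hcard⟩ := FiniteField.card F r
    have h4 : p ∣ r ^ (n : ℕ) := by rw [← hcard, hk]; exact Dvd.intro _ rfl
    have h5 : p ∣ r := hp.out.dvd_of_dvd_pow h4
    have h6 : p = r := (Nat.prime_dvd_prime_iff_eq hp.out (Fact.out : r.Prime)).1 h5
    rw [h6]
    exact CharP.cast_eq_zero F r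
  obtain ⟨z, hz, hzo⟩ := exists_z hR hna
  have hzc : ∀ x : R, z * x = x * z := fun x => (Subgroup.mem_center_iff.1 hz.2 x).symm
  set T : End F V := ρ z with hT
  have hTp : T ^ p = 1 := by
    rw [hT, ← map_pow, ← hzo, pow_orderOf_eq_one, map_one]
  have hT1 : T ≠ 1 := by
    intro h
    have h2 : z = 1 := hρ (by rw [map_one]; exact h)
    rw [h2, orderOf_one] at hzo
    exact hp.out.one_lt.ne hzo
  have hcT : ∀ x, Commute (ρ x) T := fun x => by
    show ρ x * ρ z = ρ z * ρ x
    rw [← map_mul, ← map_mul, hzc]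
  set Φ : F[X] := cyclotomic p F with hΦdef
  have hΦ : Φ * (X - 1) = X ^ p - 1 := cyclotomic_prime_mul_X_sub_one F p
  have hΦ0 : Φ ≠ 0 := cyclotomic_ne_zero p F
  have hΦ1 : Φ.eval 1 = (p : F) := eval_one_cyclotomic_prime
  -- a vector in `[V, T]`
  obtain ⟨v₀, hv₀⟩ : ∃ v, (T - 1) v ≠ 0 := by
    by_contra h
    push Not at h
    exact hT1 (sub_eq_zero.1 (LinearMap.ext h))
  have hkill : aeval T Φ ((T - 1) v₀) = 0 := by
    have e1 : T - 1 = aeval T (X - 1 : F[X]) := by rw [map_sub, aeval_X, map_one]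
    rw [e1, ← End.mul_apply, ← map_mul, hΦ, map_sub, map_pow, aeval_X, map_one, hTp, sub_self,
      LinearMap.zero_apply]
  obtain ⟨f, hf, hfΦ, u, hu0, hu⟩ := H965.XZ.exists_factor hΦ0 hv₀ hkill
  have hdeg : f.natDegree ≤ orderOf (Fintype.card F : ZMod p) := (H674.XZ.Iso.natDegree_eq hpq hf hfΦ).le
  have hf1 : f.eval 1 ≠ 0 := by
    intro h
    obtain ⟨k, hk⟩ := hfΦ
    apply hpF
    rw [← hΦ1, hk, eval_mul, h, zero_mul]
  set g : F[X] := H674.XZ.Iso.dualP p σ f with hg
  have hg1 : g.eval 1 ≠ 0 := by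
    rw [hg, H674.XZ.Iso.dual_eval_one]
    intro h
    exact hf1 ((map_eq_zero_iff σ.symm σ.symm.injective).1 h)
  have hinvT : ∀ u v, B (T u) (T v) = B u v := fun u v => hinv z u v
  -- the two spaces
  have hW : ∀ (P : F[X]) (x : R), ∀ w ∈ LinearMap.ker (aeval T P), ρ x w ∈ LinearMap.ker (aeval T P) := by
    intro P x w hw
    rw [LinearMap.mem_ker] at hw ⊢
    rw [← End.mul_apply, ← (H674.XZ.Iso.commute_aeval (hcT x) P).eq, End.mul_apply, hw, map_zero]
  have hb : ∀ (P : F[X]), P.eval 1 ≠ 0 → ∀ w ∈ LinearMap.ker (aeval T P), w ≠ 0 →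
      p * orderOf (Fintype.card F : ZMod p) ≤ finrank F (LinearMap.ker (aeval T P)) := by
    intro P hP w hw hw0
    refine H674.XZ.Iso.sub_bound hpF hR ρ (hW P) hz.1 hw fun h => hw0 ?_
    rw [LinearMap.mem_ker, aeval_fix P h] at hw
    exact (smul_eq_zero.1 hw).resolve_left hP
  have h2 := hb f hf1 u hu hu0
  obtain ⟨w, hw, hw0⟩ : ∃ w ∈ LinearMap.ker (aeval T g), w ≠ 0 := by
    by_contra hcon
    push Not at hcon
    have hker : LinearMap.ker (aeval T g) = ⊥ := by
      rw [eq_bot_iff]
      intro w hw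
      exact (Submodule.mem_bot F).2 (hcon w hw)
    have hsur : Function.Surjective (aeval T g) :=
      LinearMap.injective_iff_surjective.1 (LinearMap.ker_eq_bot.1 hker)
    apply hu0
    apply hnd
    intro v
    obtain ⟨v', rfl⟩ := hsur v
    rw [hg, H674.XZ.Iso.dual_apply hTp hadd1 hadd2 hs1 hs2 hinvT, hu]
    have := hs1 0 0 v'
    rwa [zero_smul, zero_mul] at this
  have h3 := hb g hg1 w hw hw0
  have hcop : IsCoprime f g := by
    rw [isCoprime_iff_aeval_ne_zero_of_isAlgClosed F (AlgebraicClosure F)]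
    intro a
    by_contra hcon
    push Not at hcon
    obtain ⟨k, hk⟩ := hfΦ
    have h5 : aeval a Φ = 0 := by rw [hk, map_mul, hcon.1, zero_mul]
    have h6 : a ^ p = 1 := by
      have h7 := congrArg (aeval a) hΦ
      rw [map_mul, h5, zero_mul, map_sub, map_pow, aeval_X, map_one] at h7
      exact (sub_eq_zero.1 h7.symm)
    have h7 : a ≠ 1 := by
      intro ha
      rw [ha, aeval_def, ← map_one (algebraMap F (AlgebraicClosure F)), eval₂_at_apply, hΦ1] at h5
      exact hpF ((map_eq_zero_iff _ (algebraMap F (AlgebraicClosure F)).injective).1 h5)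
    exact H674.XZ.Iso.dual_no_root hσ hlin hf.ne_zero hdeg h6 h7 hcon.1 hcon.2
  have hdis : Disjoint (LinearMap.ker (aeval T f)) (LinearMap.ker (aeval T g)) := by
    rw [Submodule.disjoint_def]
    intro v hv1 hv2
    obtain ⟨a, b, hab⟩ := hcop
    have h5 := congrArg (fun P => aeval T P v) hab
    simp only [map_add, map_mul, map_one, LinearMap.add_apply, End.mul_apply, End.one_apply] at h5
    rw [LinearMap.mem_ker] at hv1 hv2
    rw [hv1, hv2, map_zero, map_zero, add_zero] at h5
    exact h5.symm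
  have h4 := Submodule.finrank_sup_add_finrank_inf_eq (LinearMap.ker (aeval T f)) (LinearMap.ker (aeval T g))
  rw [hdis.eq_bot, finrank_bot, add_zero] at h4
  have h5 : finrank F ↥(LinearMap.ker (aeval T f) ⊔ LinearMap.ker (aeval T g)) < finrank F V := by
    refine Submodule.finrank_lt fun htop => ?_
    have h6 : LinearMap.ker (aeval T f) ⊔ LinearMap.ker (aeval T g) ≤ LinearMap.ker (aeval T (f * g)) := by
      refine sup_le (fun v hv => ?_) (fun v hv => ?_)
      · rw [LinearMap.mem_ker] at hv ⊢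
        rw [mul_comm, map_mul, End.mul_apply, hv, map_zero]
      · rw [LinearMap.mem_ker] at hv ⊢
        rw [map_mul, End.mul_apply, hv, map_zero]
    have h7 : v₁ ∈ LinearMap.ker (aeval T (f * g)) := h6 (by rw [htop]; exact Submodule.mem_top)
    rw [LinearMap.mem_ker, aeval_fix _ (hfix z), eval_mul] at h7
    exact hv₁ ((smul_eq_zero.1 h7).resolve_left (mul_ne_zero hf1 hg1))
  omega

end main

/-! ### fixed vectors -/

/-- a `p`-group acting on a set together with a free `p`-group commuting with it (after helper345) -/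
theorem exists_fix_of_free {P C X : Type*} [Group P] [Group C] [Finite P] [Finite C] [Finite X]
    (hP : IsPGroup p P) (hC : IsPGroup p C) [MulAction P X] [MulAction C X]
    (hcomm : ∀ (g : P) (c : C) (x : X), g • c • x = c • g • x)
    (hfree : ∀ (c : C) (x : X), c • x = x → c = 1)
    (hX : ¬ p * Nat.card C ∣ Nat.card X) : ∃ x : X, ∀ g : P, ∃ c : C, g • x = c • x := by
  let act : MulAction (P × C) X :=
    { smul := fun g x => g.1 • g.2 • x
      one_smul := fun x => by
        change (1 : P) • (1 : C) • x = x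
        rw [one_smul, one_smul]
      mul_smul := fun g h x => by
        change (g.1 * h.1) • (g.2 * h.2) • x = g.1 • g.2 • h.1 • h.2 • x
        rw [mul_smul, mul_smul, ← hcomm h.1 g.2] }
  have hact : ∀ (g : P × C) (x : X), g • x = g.1 • g.2 • x := fun g x => rfl
  have hpg : IsPGroup p (P × C) := by
    obtain ⟨a, ha⟩ := IsPGroup.iff_card.1 hP
    obtain ⟨b, hb⟩ := IsPGroup.iff_card.1 hC
    refine IsPGroup.of_card (n := a + b) ?_
    rw [Nat.card_prod, ha, hb, pow_add]
  obtain ⟨b, hb⟩ := IsPGroup.iff_card.1 hC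
  -- the `C`-orbits have full size
  have hCo : ∀ x : X, Nat.card (MulAction.orbit C x) = p ^ b := by
    intro x
    rw [← hb, Nat.card_coe_set_eq, ← MulAction.index_stabilizer]
    have : MulAction.stabilizer C x = ⊥ := by
      rw [Subgroup.eq_bot_iff_forall]
      intro c hc
      exact hfree c x hc
    rw [this, Subgroup.index_bot]
  have hsub : ∀ x : X, MulAction.orbit C x ⊆ MulAction.orbit (P × C) x := by
    rintro x _ ⟨c, rfl⟩
    refine ⟨(1, c), ?_⟩
    change (1 : P) • c • x = c • x
    rw [one_smul]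
  have hex : ∃ x : X, Nat.card (MulAction.orbit (P × C) x) = p ^ b := by
    by_contra hcon
    push Not at hcon
    apply hX
    have := Fintype.ofFinite X
    have := Fintype.ofFinite (MulAction.orbitRel.Quotient (P × C) X)
    rw [Nat.card_congr (MulAction.selfEquivSigmaOrbits (P × C) X), Nat.card_sigma]
    refine Finset.dvd_sum fun ω _ => ?_
    obtain ⟨k, hk⟩ := hpg.card_orbit (ω.out)
    have h1 := hcon ω.out
    rw [hk] at h1 ⊢
    have h2 : p ^ b ≤ p ^ k := by
      rw [← hk, ← hCo ω.out]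
      exact Nat.card_mono (Set.toFinite _) (hsub _)
    have h3 : b ≤ k := (Nat.pow_le_pow_iff_right (Fact.out : p.Prime).one_lt).1 h2
    have h4 : b ≠ k := by
      rintro rfl
      exact h1 rfl
    rw [hb, ← pow_succ']
    exact pow_dvd_pow p (by omega)
  obtain ⟨x, hx⟩ := hex
  refine ⟨x, fun g => ?_⟩
  have h1 : MulAction.orbit C x = MulAction.orbit (P × C) x := by
    apply Set.eq_of_subset_of_ncard_le (hsub x) _ (Set.toFinite _)
    rw [← Nat.card_coe_set_eq, ← Nat.card_coe_set_eq, hx, hCo]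
  have h2 : g • x ∈ MulAction.orbit (P × C) x := by
    refine ⟨(g, 1), ?_⟩
    change g • (1 : C) • x = g • x
    rw [one_smul]
  rw [← h1] at h2
  obtain ⟨c, hc⟩ := h2
  exact ⟨c, hc.symm⟩

/-- **a `p`-group of isometries fixes a nonsingular vector if the number of nonsingular lines is prime to `p`** -/
theorem exists_fix (hp2 : p ≠ 2) {V : Type v} [AddCommGroup V] [Module F V] [Finite V] (Q : V → F)
    (hQs : ∀ (c : F) (v : V), Q (c • v) = c ^ 2 * Q v) {M : ℕ} (hM : ¬ p ∣ M)
    (hcard : Nat.card {v : V // Q v ≠ 0} = M * (Fintype.card F - 1))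
    {R : Type*} [Group R] [Finite R] (hR : IsPGroup p R) (ρ : R →* End F V) (hinv : ∀ x v, Q (ρ x v) = Q v) :
    ∃ v : V, v ≠ 0 ∧ ∀ x : R, ρ x v = v := by
  classical
  let X := {v : V // Q v ≠ 0}
  obtain ⟨C⟩ : Nonempty (Sylow p Fˣ) := inferInstance
  let actP : MulAction R X :=
    { smul := fun g v => ⟨ρ g v.1, by
        rw [hinv]
        exact v.2⟩
      one_smul := fun v => Subtype.ext (by
        show ρ 1 v.1 = v.1
        rw [map_one]; rfl)
      mul_smul := fun g h v => Subtype.ext (by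
        show ρ (g * h) v.1 = ρ g (ρ h v.1)
        rw [map_mul]; rfl) }
  let actC : MulAction C X :=
    { smul := fun c v => ⟨(c.1 : F) • v.1, by
        rw [hQs]
        exact mul_ne_zero (pow_ne_zero _ c.1.ne_zero) v.2⟩
      one_smul := fun v => Subtype.ext (one_smul F v.1)
      mul_smul := fun g h v => Subtype.ext (mul_smul (g.1 : F) (h.1 : F) v.1) }
  have hX0 : ∀ x : X, x.1 ≠ 0 := by
    intro x h0
    apply x.2
    have h2 := hQs 0 x.1
    rw [zero_smul] at h2
    rw [h0, h2]
    ring
  obtain ⟨v, hv⟩ := exists_fix_of_free (p := p) (P := R) (C := C) (X := X) hR C.isPGroup'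
    (fun g c x => Subtype.ext ((ρ g).map_smul (c.1 : F) x.1)) (fun c x h => by
      have h1 : (c.1 : F) • x.1 = x.1 := congrArg Subtype.val h
      have h2 : ((c.1 : F) - 1) • x.1 = 0 := by rw [sub_smul, h1, one_smul, sub_self]
      have h3 : (c.1 : F) = 1 := by
        rcases smul_eq_zero.1 h2 with h | h
        · exact sub_eq_zero.1 h
        · exact absurd h (hX0 x)
      exact Subtype.ext (Units.ext h3)) (by
      intro h
      have h1 : Nat.card X = M * (Fintype.card F - 1) := hcard
      rw [h1, Sylow.card_eq_multiplicity, ← pow_succ'] at h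
      have h2 : Nat.card Fˣ = Fintype.card F - 1 := by
        rw [Nat.card_units, Nat.card_eq_fintype_card]
      rw [h2] at h
      have h3 : Nat.Coprime p M := (Nat.Prime.coprime_iff_not_dvd hp.out).2 hM
      have h4 := (Nat.Coprime.pow_left _ h3).dvd_of_dvd_mul_left h
      have h5 : Fintype.card F - 1 ≠ 0 := by
        have := Fintype.one_lt_card (α := F)
        omega
      have h6 := (hp.out.pow_dvd_iff_le_factorization h5).1 h4
      omega)
  refine ⟨v.1, hX0 v, fun x => ?_⟩
  obtain ⟨c, hc⟩ := hv x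
  have h1 : ρ x v.1 = (c.1 : F) • v.1 := congrArg Subtype.val hc
  have h2 : Q (ρ x v.1) = Q v.1 := hinv x v.1
  rw [h1, hQs] at h2
  have h3 : (c.1 : F) ^ 2 = 1 := by
    apply mul_right_cancel₀ v.2
    rw [h2, one_mul]
  have h4 : c ^ 2 = 1 := by
    apply Subtype.ext
    apply Units.ext
    simpa using h3
  have h5 : c = 1 := by
    obtain ⟨k, hk⟩ := IsPGroup.iff_card.1 C.isPGroup'
    have h6 : c ^ p ^ k = 1 := by
      rw [← hk]
      exact pow_card_eq_one'
    have h7 : orderOf c ∣ Nat.gcd 2 (p ^ k) := Nat.dvd_gcd (orderOf_dvd_of_pow_eq_one h4) (orderOf_dvd_of_pow_eq_one h6)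
    have h8 : Nat.gcd 2 (p ^ k) = 1 :=
      Nat.Coprime.pow_right k ((Nat.coprime_primes Nat.prime_two hp.out).2 (Ne.symm hp2))
    rw [h8, Nat.dvd_one, orderOf_eq_one_iff] at h7
    exact h7
  rw [h1, h5]
  exact one_smul F v.1

end Cfsg.Agent.H719.HT.AbW
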